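import Cfsg.Agent.H419.EP.Iface

/-!
# S3499: the kill criterion with the `p`-elements commuting with all `p`-elements of `M0` (helper950)

`pker p M` : the `p`-elements of `M` commuting with all `p`-elements of `M`, a characteristic subgroup of `M`.
`pkill_hat` : for `x ∈ S`, `x ∉ Â`, if `pker p (Â ∩ Â^x) ≠ 1`, then every `g ∈ Â` centralising `pker p (Â ∩ Â^x)` lies in
`Â^x`.
-/

set_option autoImplicit false
set_option linter.unusedSectionVars false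

namespace Cfsg.Agent.H950.EPU

open Subgroup Cfsg.Agent.H284 Cfsg.Agent.H419.EP

section abs

variable {G : Type*} [Group G]

/-- the `p`-elements of `M` commuting with all `p`-elements of `M` -/
def pker (p : ℕ) (M : Subgroup G) : Subgroup G where
  carrier := {z | z ∈ M ∧ (∃ k : ℕ, z ^ p ^ k = 1) ∧ ∀ y ∈ M, (∃ k : ℕ, y ^ p ^ k = 1) → z * y = y * z}
  one_mem' := ⟨M.one_mem, ⟨0, by rw [one_pow]⟩, fun y _ _ => by rw [one_mul, mul_one]⟩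
  mul_mem' := by
    rintro a b ⟨ha, ⟨k, hk⟩, ha'⟩ ⟨hb, ⟨l, hl⟩, hb'⟩
    refine ⟨M.mul_mem ha hb, ⟨k + l, ?_⟩, fun y hy hyp => ?_⟩
    · have h1 : Commute a b := ha' b hb ⟨l, hl⟩
      rw [h1.mul_pow, pow_add, pow_mul, hk, one_pow, one_mul, mul_comm (p ^ k), pow_mul, hl, one_pow]
    · rw [mul_assoc, hb' y hy hyp, ← mul_assoc, ha' y hy hyp, mul_assoc]
  inv_mem' := by
    rintro a ⟨ha, ⟨k, hk⟩, ha'⟩
    refine ⟨M.inv_mem ha, ⟨k, by rw [inv_pow, hk, inv_one]⟩, fun y hy hyp => ?_⟩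
    have h1 := ha' y hy hyp
    calc a⁻¹ * y = a⁻¹ * (y * a) * a⁻¹ := by group
      _ = a⁻¹ * (a * y) * a⁻¹ := by rw [h1]
      _ = y * a⁻¹ := by group

theorem mem_pker {p : ℕ} {M : Subgroup G} {z : G} : z ∈ pker p M ↔
    z ∈ M ∧ (∃ k : ℕ, z ^ p ^ k = 1) ∧ ∀ y ∈ M, (∃ k : ℕ, y ^ p ^ k = 1) → z * y = y * z := Iff.rfl

theorem pker_aut [Finite G] {p : ℕ} {M : Subgroup G} {σ : MulAut G} (hσ : ∀ y ∈ M, σ y ∈ M) :
    ∀ z ∈ pker p M, σ z ∈ pker p M := by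
  rintro z ⟨hz, ⟨k, hk⟩, hz'⟩
  refine ⟨hσ z hz, ⟨k, by rw [← map_pow, hk, map_one]⟩, fun y hy ⟨l, hl⟩ => ?_⟩
  obtain ⟨⟨y', hy'⟩, e⟩ := (Finite.injective_iff_surjective (f := fun m : M => (⟨σ m, hσ m m.2⟩ : M))).1 (by
    intro a b hab
    exact Subtype.ext (σ.injective (Subtype.ext_iff.1 hab))) ⟨y, hy⟩
  have e' : σ y' = y := Subtype.ext_iff.1 e
  have h1 : y' ^ p ^ l = 1 := by
    apply σ.injective
    rw [map_pow, e', hl, map_one]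
  rw [← e', ← map_mul, ← map_mul, hz' y' hy' ⟨l, h1⟩]

variable [Finite G] {A : Subgroup G} {Γ : Subgroup (MulAut G)} (h : EPT A Γ)

include h in
/-- **the criterion in `Q`** -/
theorem pkill {x : G} (hx : x ∉ A) {p : ℕ} (hne : pker p (A ⊓ cj x A) ≠ ⊥) {g : G} (hg : g ∈ A)
    (hgz : ∀ z ∈ pker p (A ⊓ cj x A), g * z * g⁻¹ ∈ pker p (A ⊓ cj x A)) : g ∈ cj x A :=
  h.norm_aut hx (fun _ hz => (mem_pker.1 hz).1) (fun _ hσ => pker_aut hσ) hne hg hgz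

end abs

section scal

variable {ι : Type} [Fintype ι] [DecidableEq ι] {F : Type*} [Field F] {p : ℕ} [Fact p.Prime] [CharP F p]

/-- scalars of `p`-power order are trivial -/
theorem scal_eq_one {z : GL ι F} (hz : z ∈ Cfsg.Geo.scalars ι F) {k : ℕ} (hk : z ^ p ^ k = 1) : z = 1 := by
  rcases isEmpty_or_nonempty ι with hι | ⟨⟨i⟩⟩
  · exact Subsingleton.elim _ _
  · obtain ⟨c, hc⟩ := (Cfsg.Geo.mem_scalars_iff z).1 hz
    have h1 : ((z ^ p ^ k : GL ι F) : Matrix ι ι F) = 1 := by rw [hk]; rfl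
    rw [Units.val_pow_eq_pow_val, hc, smul_pow, one_pow] at h1
    have h2 : (c : F) ^ p ^ k = 1 := by
      have := congrFun (congrFun h1 i) i
      simpa using this
    have h3 : ((c : F) - 1) ^ p ^ k = 0 := by
      rw [sub_pow_char_pow, h2, one_pow, sub_self]
    have h4 : (c : F) = 1 := by
      have := pow_eq_zero_iff (pow_ne_zero k (Fact.out : p.Prime).ne_zero) |>.1 h3
      exact sub_eq_zero.1 this
    apply Units.ext
    rw [hc, h4, one_smul]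
    rfl

theorem scal_comm {z g : GL ι F} (hz : z ∈ Cfsg.Geo.scalars ι F) : z * g = g * z := by
  obtain ⟨c, hc⟩ := (Cfsg.Geo.mem_scalars_iff z).1 hz
  apply Units.ext
  rw [Units.val_mul, Units.val_mul, hc, Matrix.smul_mul, Matrix.one_mul, Matrix.mul_smul, Matrix.mul_one]

end scal

section hat

variable {Q : Type*} [Group Q] [Finite Q] {A : Subgroup Q} {Γ : Subgroup (MulAut Q)} (h : EPT A Γ)
variable {ι : Type} [Fintype ι] [DecidableEq ι] {F : Type*} [Field F] [Finite F] {S : Subgroup (GL ι F)} (m : Model Q S)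
variable {p : ℕ} [hp : Fact p.Prime] [CharP F p]

omit [Finite Q] in
/-- a `p`-element of the image lifts to a `p`-element -/
theorem exists_plift {M : Subgroup Q} {y : Q} (hy : y ∈ M) {k : ℕ} (hk : y ^ p ^ k = 1) :
    ∃ s : S, (s : GL ι F) ∈ m.hat M ∧ m.π s = y ∧ ∃ l : ℕ, (s : GL ι F) ^ p ^ l = 1 := by
  obtain ⟨s, rfl⟩ := m.surj y
  have hfin : Finite (GL ι F) := inferInstance
  have hs0 : 0 < orderOf s := orderOf_pos s
  obtain ⟨a, N, hN, hor⟩ := Nat.exists_eq_pow_mul_and_not_dvd hs0.ne' p hp.out.ne_one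
  have hcop : Nat.Coprime (p ^ k) N := Nat.Coprime.pow_left k ((Nat.Prime.coprime_iff_not_dvd hp.out).2 hN)
  obtain ⟨j, hj1, hj2⟩ := Nat.chineseRemainder hcop 1 0
  have h1 : m.π (s ^ j) = m.π s := by
    rw [map_pow]
    have h2 : m.π s ^ j = m.π s ^ 1 := by
      rw [pow_eq_pow_iff_modEq]
      exact Nat.ModEq.of_dvd (orderOf_dvd_of_pow_eq_one hk) hj1
    rw [h2, pow_one]
  refine ⟨s ^ j, ?_, h1, a, ?_⟩
  · rw [m.mem_hat_iff, h1]
    exact hy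
  · obtain ⟨c, hc⟩ := (Nat.modEq_zero_iff_dvd).1 hj2
    have h3 : (s ^ j) ^ p ^ a = 1 := by
      rw [← pow_mul, hc, mul_assoc, mul_comm c, ← mul_assoc, mul_comm N, ← hor, pow_mul, pow_orderOf_eq_one, one_pow]
    have h4 := congrArg (Subgroup.subtype S) h3
    simpa using h4

include h in
/-- **the criterion** in the linear group -/
theorem pkill_hat {x : GL ι F} (hxS : x ∈ S) (hx : x ∉ m.hat A) {z0 : GL ι F}
    (hz0 : z0 ∈ pker p (m.hat A ⊓ cj x (m.hat A))) (hz1 : z0 ≠ 1) {g : GL ι F} (hg : g ∈ m.hat A)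
    (hgz : ∀ z ∈ pker p (m.hat A ⊓ cj x (m.hat A)), g * z = z * g) : g ∈ cj x (m.hat A) := by
  have hx' : m.π ⟨x, hxS⟩ ∉ A := fun e => hx ((m.mem_hat_iff ⟨x, hxS⟩).2 e)
  obtain ⟨hgS, hgA⟩ := m.mem_hat.1 hg
  have hM : m.hat (A ⊓ cj (m.π ⟨x, hxS⟩) A) = m.hat A ⊓ cj x (m.hat A) := by
    rw [m.hat_inf, m.hat_cj]
  have hz0S : z0 ∈ S := m.hat_le A (mem_inf.1 hz0.1).1
  -- `π` of `pker` is in `pker`
  have h1 : ∀ z : S, (z : GL ι F) ∈ pker p (m.hat A ⊓ cj x (m.hat A)) →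
      m.π z ∈ pker p (A ⊓ cj (m.π ⟨x, hxS⟩) A) := by
    rintro z ⟨hz, ⟨k, hk⟩, hz'⟩
    refine ⟨?_, ⟨k, ?_⟩, ?_⟩
    · rw [← m.mem_hat_iff, hM]
      exact hz
    · rw [← map_pow]
      have : z ^ p ^ k = 1 := Subtype.ext (by rw [Subgroup.coe_pow, hk]; rfl)
      rw [this, map_one]
    · rintro y hy ⟨l, hl⟩
      obtain ⟨s, hs, rfl, l', hl'⟩ := exists_plift m hy hl
      rw [hM] at hs
      have h2 := hz' _ hs ⟨l', hl'⟩
      rw [← map_mul, ← map_mul]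
      exact congrArg m.π (Subtype.ext h2)
  -- elements of `pker` lift to `pker`
  have h2 : ∀ z ∈ pker p (A ⊓ cj (m.π ⟨x, hxS⟩) A), ∃ s : S, (s : GL ι F) ∈ pker p (m.hat A ⊓ cj x (m.hat A)) ∧
      m.π s = z := by
    rintro z ⟨hz, ⟨k, hk⟩, hz'⟩
    obtain ⟨s, hs, rfl, l, hl⟩ := exists_plift m hz hk
    rw [hM] at hs
    refine ⟨s, ⟨hs, ⟨l, hl⟩, ?_⟩, rfl⟩
    rintro y hy ⟨l', hl'⟩
    have hyS : y ∈ S := m.hat_le A (mem_inf.1 hy).1
    have h3 : m.π s * m.π ⟨y, hyS⟩ = m.π ⟨y, hyS⟩ * m.π s := by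
      apply hz'
      · rw [← m.mem_hat_iff, hM]
        exact hy
      · refine ⟨l', ?_⟩
        rw [← map_pow]
        have : (⟨y, hyS⟩ : S) ^ p ^ l' = 1 := Subtype.ext (by rw [Subgroup.coe_pow]; exact hl')
        rw [this, map_one]
    rw [← map_mul, ← map_mul, m.π_eq_iff] at h3
    obtain ⟨c, hc, e⟩ := h3
    have e1 : (s : GL ι F) * y = y * s * c := e
    have e2 : (s : GL ι F) * y * (s : GL ι F)⁻¹ = y * c := by
      rw [e1, mul_assoc y, ← scal_comm hc]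
      group
    have e3 : c ^ p ^ l' = 1 := by
      have h4 : ((s : GL ι F) * y * (s : GL ι F)⁻¹) ^ p ^ l' = 1 := by
        rw [conj_pow, hl']
        group
      rw [e2, (show Commute y c from (scal_comm hc).symm).mul_pow, hl', one_mul] at h4
      exact h4
    rw [scal_eq_one hc e3, mul_one] at e1
    exact e1
  have h3 := pkill h hx' (p := p) (g := m.π ⟨g, hgS⟩) (by
    intro e
    have h4 := h1 ⟨z0, hz0S⟩ hz0
    rw [e, mem_bot, m.ker] at h4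
    obtain ⟨k, hk⟩ := hz0.2.1
    exact hz1 (scal_eq_one h4 hk)) hgA (by
    intro z hz
    obtain ⟨s, hs, rfl⟩ := h2 z hz
    have h4 : (⟨g, hgS⟩ : S) * s = s * ⟨g, hgS⟩ := Subtype.ext (hgz _ hs)
    rw [← map_mul, h4, map_mul, mul_inv_cancel_right]
    exact hz)
  rw [← m.hat_cj A ⟨x, hxS⟩]
  exact m.mem_hat.2 ⟨hgS, h3⟩

/-- the case `M̂0 = C_Â(x)` -/
theorem false_of_pker {x : GL ι F} (h : EPT A Γ) (hxS : x ∈ S) (hx : x ∉ m.hat A)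
    (hcx : ∀ g ∈ m.hat A, x⁻¹ * g * x ∈ m.hat A → g * x = x * g) {z0 : GL ι F} (hz0A : z0 ∈ m.hat A)
    (hz0x : z0 * x = x * z0) {k : ℕ} (hz0p : z0 ^ p ^ k = 1) (hz1 : z0 ≠ 1)
    (hz0c : ∀ y ∈ m.hat A, y * x = x * y → (∃ l : ℕ, y ^ p ^ l = 1) → z0 * y = y * z0)
    {g : GL ι F} (hg : g ∈ m.hat A) (hgx : g * x ≠ x * g)
    (hgz : ∀ z ∈ m.hat A, z * x = x * z → (∃ l : ℕ, z ^ p ^ l = 1) →
      (∀ y ∈ m.hat A, y * x = x * y → (∃ l : ℕ, y ^ p ^ l = 1) → z * y = y * z) → g * z = z * g) : False := by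
  have hmem : ∀ y, y ∈ m.hat A ⊓ cj x (m.hat A) ↔ y ∈ m.hat A ∧ y * x = x * y := by
    intro y
    rw [mem_inf, mem_cj]
    constructor
    · rintro ⟨h1, h2⟩
      exact ⟨h1, hcx y h1 h2⟩
    · rintro ⟨h1, h2⟩
      refine ⟨h1, ?_⟩
      rw [mul_assoc, h2, inv_mul_cancel_left]
      exact h1
  have h1 := pkill_hat h m (p := p) hxS hx (z0 := z0) ⟨(hmem _).2 ⟨hz0A, hz0x⟩, ⟨k, hz0p⟩, fun y hy hyp =>
    hz0c y ((hmem y).1 hy).1 ((hmem y).1 hy).2 hyp⟩ hz1 hg (fun z hz => by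
      obtain ⟨h1, h2, h3⟩ := hz
      exact hgz z ((hmem z).1 h1).1 ((hmem z).1 h1).2 h2 (fun y hy hyx hyp => h3 y ((hmem y).2 ⟨hy, hyx⟩) hyp))
  exact hgx ((hmem g).1 ⟨hg, h1⟩).2

/-- the criterion with `K = M0` : `M̂0 = C_Â(x)` is normalised by `g` -/
theorem false_of_norm {x : GL ι F} (h : EPT A Γ) (hxS : x ∈ S) (hx : x ∉ m.hat A)
    (hcx : ∀ g ∈ m.hat A, x⁻¹ * g * x ∈ m.hat A → g * x = x * g)
    {g : GL ι F} (hg : g ∈ m.hat A) (hgx : g * x ≠ x * g)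
    (hgz : ∀ y ∈ m.hat A, y * x = x * y → (g * y * g⁻¹) * x = x * (g * y * g⁻¹)) : False := by
  have hmem : ∀ y, y ∈ m.hat A ⊓ cj x (m.hat A) ↔ y ∈ m.hat A ∧ y * x = x * y := by
    intro y
    rw [mem_inf, mem_cj]
    constructor
    · rintro ⟨h1, h2⟩
      exact ⟨h1, hcx y h1 h2⟩
    · rintro ⟨h1, h2⟩
      refine ⟨h1, ?_⟩
      rw [mul_assoc, h2, inv_mul_cancel_left]
      exact h1
  have hx' : m.π ⟨x, hxS⟩ ∉ A := fun e => hx ((m.mem_hat_iff ⟨x, hxS⟩).2 e)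
  obtain ⟨hgS, hgA⟩ := m.mem_hat.1 hg
  have hM : m.hat (A ⊓ cj (m.π ⟨x, hxS⟩) A) = m.hat A ⊓ cj x (m.hat A) := by
    rw [m.hat_inf, m.hat_cj]
  have h1 := h.norm_aut hx' (K := A ⊓ cj (m.π ⟨x, hxS⟩) A) le_rfl (fun σ hσ => hσ) (h.M0 _ hx')
    (a := m.π ⟨g, hgS⟩) hgA (by
    intro z hz
    obtain ⟨s, rfl⟩ := m.surj z
    have h2 := (hmem s).1 (by rw [← hM]; exact (m.mem_hat_iff s).2 hz)
    have h3 : (g * s * g⁻¹ : GL ι F) ∈ m.hat A ⊓ cj x (m.hat A) :=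
      (hmem _).2 ⟨(m.hat A).mul_mem ((m.hat A).mul_mem hg h2.1) ((m.hat A).inv_mem hg), hgz _ h2.1 h2.2⟩
    rw [← hM] at h3
    have h5 : ((⟨g, hgS⟩ * s * ⟨g, hgS⟩⁻¹ : S) : GL ι F) = g * s * g⁻¹ := by push_cast; rfl
    rw [← h5] at h3
    have h6 := (m.mem_hat_iff _).1 h3
    rw [map_mul, map_mul, map_inv] at h6
    exact h6)
  have h4 : g ∈ cj x (m.hat A) := by
    rw [← m.hat_cj A ⟨x, hxS⟩]
    exact m.mem_hat.2 ⟨hgS, h1⟩
  exact hgx ((hmem g).1 ⟨hg, h4⟩).2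

end hat

end Cfsg.Agent.H950.EPU
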